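import Cfsg.Agent.Push.S4
import Cfsg.Agent.Glaub.Transfer5

/-! The norm map of an abelian subgroup and weakly closed elements. -/

namespace Cfsg.Agent.Glaub

open Subgroup Cfsg.Agent.LocalEven
open scoped commutatorElement

variable {G : Type*} [Group G] [Finite G] {p : ℕ}

theorem exists_norm {V H S : Subgroup G} (hV : IsMulCommutative V) (hH : H ≤ 𝐍⟮V⟯) :
    ∃ τ : V →* V, (∀ v : V, (v : G) ∈ 𝐂⟮S⟯ → (τ v : G) ∈ 𝐂⟮H⟯) ∧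
      (∀ v : V, (v : G) ∈ 𝐂⟮H⟯ → τ v = v ^ S.relIndex H) ∧
      ∀ v : V, (τ v : G) * ((v : G) ^ S.relIndex H)⁻¹ ∈ ⁅V, H⁆ := by
  letI : CommGroup V := { (inferInstance : Group V) with mul_comm := hV.is_comm.comm }
  haveI := Fintype.ofFinite (H ⧸ S.subgroupOf H)
  let φ : H →* MulAut V := V.normalizerMonoidHom.comp (inclusion hH)
  have hφ : ∀ (h : H) (v : V), (φ h v : G) = h * v * (h : G)⁻¹ := fun _ _ => rfl
  have hc : S.relIndex H = Fintype.card (H ⧸ S.subgroupOf H) := Nat.card_eq_fintype_card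
  refine ⟨∏ q : H ⧸ S.subgroupOf H, (φ q.out).toMonoidHom, fun v hv => ?_, fun v hv => ?_,
    fun v => ?_⟩ <;> simp only [MonoidHom.finset_prod_apply, MulEquiv.coe_toMonoidHom]
  · intro h hh
    rw [← mul_inv_eq_iff_eq_mul, ← hφ ⟨h, hh⟩, map_prod,
      ← Equiv.prod_comp (MulAction.toPerm (⟨h, hh⟩ : H)) fun q : H ⧸ S.subgroupOf H => φ q.out v]
    refine congrArg _ (Finset.prod_congr rfl fun q _ => ?_)
    obtain ⟨s, hs, e⟩ := out_smul (⟨h, hh⟩ : H) q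
    rw [MulAction.toPerm_apply, e, map_mul, map_mul, MulAut.mul_apply, MulAut.mul_apply,
      show φ s v = v from Subtype.ext (by rw [hφ, hv s hs, mul_inv_cancel_right])]
  · rw [hc, ← Finset.card_univ, ← Finset.prod_const]
    exact Finset.prod_congr rfl fun q _ => Subtype.ext (by rw [hφ, hv _ q.out.2, mul_inv_cancel_right])
  · have : (∏ q : H ⧸ S.subgroupOf H, φ q.out v) * (v ^ S.relIndex H)⁻¹ ∈ ⁅V, H⁆.subgroupOf V := by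
      rw [hc, ← Finset.card_univ, ← Finset.prod_const, ← Finset.prod_inv_distrib,
        ← Finset.prod_mul_distrib]
      refine Subgroup.prod_mem _ fun q _ => ?_
      rw [commutator_comm]
      exact commutator_mem_commutator q.out.2 v.2
    exact this

variable [hp : Fact p.Prime]

theorem exists_pow_eq {V : Subgroup G} (hV : IsPGroup p V) {m : ℕ} (hm : ¬ p ∣ m) (v : V) :
    ∃ w ∈ zpowers v, w ^ m = v := by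
  obtain ⟨k, hk⟩ := orderOf_of_mem_isPGroup hV v.2
  obtain ⟨n, hn⟩ := exists_pow_eq_self_of_coprime (x := v) (n := m) (by
    rw [← orderOf_coe, hk]; exact (coprime_of_not_dvd hm).pow_right k)
  exact ⟨v ^ n, pow_mem (mem_zpowers v) n, by rw [← pow_mul, mul_comm, pow_mul, hn]⟩

theorem exists_compl_cent {V H S : Subgroup G} (hV : IsMulCommutative V) (hp' : IsPGroup p V)
    (hH : H ≤ 𝐍⟮V⟯) (hS : IsSylowIn p S H) :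
    ∃ K ≤ V ⊓ 𝐂⟮S⟯, (V ⊓ 𝐂⟮H⟯) ⊓ K = ⊥ ∧ (V ⊓ 𝐂⟮H⟯) ⊔ K = V ⊓ 𝐂⟮S⟯ := by
  obtain ⟨τ, h1, h2, -⟩ := exists_norm (S := S) hV hH
  refine ⟨τ.ker.map V.subtype ⊓ 𝐂⟮S⟯, inf_le_inf_right _ (map_subtype_le _), eq_bot_iff.2 ?_,
    le_antisymm (sup_le (inf_le_inf_left _ (cent_anti hS.le))
      (inf_le_inf_right _ (map_subtype_le _))) fun v hv => ?_⟩
  · rintro _ ⟨⟨-, a⟩, ⟨v, b, rfl⟩, -⟩
    obtain ⟨k, hk⟩ := hp' v
    rw [eq_one_of_pow_of_not_dvd hS.not_dvd ((h2 v a).symm.trans b) hk]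
    exact one_mem _
  · obtain ⟨w, hw, e⟩ := exists_pow_eq hp' hS.not_dvd (τ ⟨v, hv.1⟩)
    have c : (w : G) ∈ 𝐂⟮H⟯ := (zpowers_le (H := 𝐂⟮H⟯.subgroupOf V)).2 (h1 _ hv.2) hw
    rw [show v = w * ((w : G)⁻¹ * v) by group]
    refine mul_mem (mem_sup_left ⟨w.2, c⟩) (mem_sup_right ⟨⟨w⁻¹ * ⟨v, hv.1⟩, ?_, rfl⟩,
      (𝐂⟮S⟯).mul_mem ((𝐂⟮S⟯).inv_mem (cent_anti hS.le c)) hv.2⟩)
    show τ _ = 1
    rw [map_mul, map_inv, h2 w c, e, inv_mul_cancel]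

theorem inf_cent_le_sup {V H S : Subgroup G} (hV : IsMulCommutative V) (hp' : IsPGroup p V)
    (hH : H ≤ 𝐍⟮V⟯) (hS : IsSylowIn p S H) : V ⊓ 𝐂⟮S⟯ ≤ ⁅V, H⁆ ⊔ (V ⊓ 𝐂⟮H⟯) := fun v hv => by
  obtain ⟨τ, h1, -, h3⟩ := exists_norm (S := S) hV hH
  obtain ⟨w, hw, e⟩ := exists_pow_eq hp' hS.not_dvd ⟨v, hv.1⟩
  have c : (w : G) ∈ 𝐂⟮S⟯ := (zpowers_le (H := 𝐂⟮S⟯.subgroupOf V)).2 hv.2 hw
  rw [show v = (τ w * ((w : G) ^ S.relIndex H)⁻¹)⁻¹ * τ w by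
    rw [show (w : G) ^ S.relIndex H = v from congrArg Subtype.val e]; group]
  exact mul_mem (mem_sup_left (inv_mem (h3 w))) (mem_sup_right ⟨(τ w).2, h1 w c⟩)

/-- If the weakly closed elements are those centralized by `N`, they form a direct factor. -/
theorem exists_wc_factor {S Q N : Subgroup G} (hS : IsSylowIn p S ⊤) (hQ : Q ≤ S)
    (hZ : S ⊓ 𝐂⟮S⟯ ≤ Q) (hSN : S ≤ N) (hN : N ≤ 𝐍⟮Q⟯)
    (h : ∀ x ∈ S ⊓ 𝐂⟮N⟯, ∀ g, g * x * g⁻¹ ∈ S → g * x * g⁻¹ = x) :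
    ∃ W K : Subgroup G, (∀ x, x ∈ W ↔ x ∈ S ∧ ∀ g, g * x * g⁻¹ ∈ S → g * x * g⁻¹ = x) ∧
      K ≤ S ⊓ 𝐂⟮S⟯ ∧ W ⊓ K = ⊥ ∧ W ⊔ K = S ⊓ 𝐂⟮S⟯ := by
  obtain ⟨K, k1, k2, k3⟩ := exists_compl_cent (isMulCommutative_center Q)
    (hS.pgrp.to_le (inf_le_left.trans hQ)) (le_normalizer_inf hN (le_normalizer_centralizer hN))
    (hS.mono hSN le_top)
  have e : Q ⊓ 𝐂⟮Q⟯ ⊓ 𝐂⟮S⟯ = S ⊓ 𝐂⟮S⟯ := le_antisymm (inf_le_inf_right _ (inf_le_left.trans hQ))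
    (le_inf (le_inf hZ (inf_le_right.trans (cent_anti hQ))) inf_le_right)
  refine ⟨Q ⊓ 𝐂⟮Q⟯ ⊓ 𝐂⟮N⟯, K, fun x => ⟨fun hx => ⟨hQ hx.1.1, h x ⟨hQ hx.1.1, hx.2⟩⟩, fun hx => ?_⟩, e ▸ k1, k2,
    e ▸ k3⟩
  have c : x ∈ S ⊓ 𝐂⟮S⟯ := ⟨hx.1, fun s hs => mul_inv_eq_iff_eq_mul.1
    (hx.2 s (mul_mem (mul_mem hs hx.1) (inv_mem hs)))⟩
  exact ⟨(e.ge c).1, fun n hn => mul_inv_eq_iff_eq_mul.1
    (hx.2 n (hQ (conj_mem_of_mem_normalizer (hN hn) (hZ c))))⟩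

theorem exists_wc_factor' {S : Subgroup G} (hS : IsSylowIn p S ⊤)
    (hZ : S ⊓ 𝐂⟮S⟯ ≤ pPrimePCore p G) :
    ∃ W K : Subgroup G, (∀ x, x ∈ W ↔ x ∈ S ∧ ∀ g, g * x * g⁻¹ ∈ S → g * x * g⁻¹ = x) ∧
      K ≤ S ⊓ 𝐂⟮S⟯ ∧ W ⊓ K = ⊥ ∧ W ⊔ K = S ⊓ 𝐂⟮S⟯ := by
  have hQ := hS.inf_of_le_normalizer (N := pPrimePCore p G) le_top le_normalizer_of_normal
  refine exists_wc_factor hS inf_le_left (le_inf inf_le_left hZ)
    (le_normalizer_inf le_normalizer le_normalizer_of_normal) le_rfl fun x hx g hg => ?_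
  obtain ⟨d, hd, n, hn, rfl⟩ := hQ.frattini (le_normalizer_of_normal (mem_top g))
  rw [← Core.pPrimeCore_sup_eq_pPrimePCore ⟨hQ.le, hQ.pgrp, hQ.not_dvd⟩] at hd
  obtain ⟨o, ho, q, hq, rfl⟩ := (mem_sup_iff_of_le_normalizer' le_normalizer_of_normal).1 hd
  have e : o * q * n * x * (o * q * n)⁻¹ = o * x * o⁻¹ := by
    rw [show o * q * n * x * (o * q * n)⁻¹ = o * (q * n * x * (q * n)⁻¹) * o⁻¹ by group,
      hx.2 _ (mul_mem (le_normalizer hq) hn), mul_inv_cancel_right]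
  rw [e] at hg ⊢
  have : o * x * o⁻¹ * x⁻¹ ∈ S ⊓ pPrimeCore p G := mem_inf.2 ⟨mul_mem hg (inv_mem hx.1), by
    rw [mul_assoc, mul_assoc, ← mul_assoc x]
    exact mul_mem ho (Normal.conj_mem inferInstance _ (inv_mem ho) x)⟩
  rwa [eq_bot_of_not_dvd (hS.pgrp.to_le inf_le_left) inf_le_right Transfer.not_dvd_card_pPrimeCore,
    mem_bot, mul_inv_eq_one] at this

end Cfsg.Agent.Glaub
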