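import Cfsg.Agent.Glaub.StQ
import Cfsg.Agent.Fusion.PSt
import Cfsg.Agent.Fusion.More2
import Cfsg.Agent.Fusion.Solv
import Cfsg.Agent.Fusion.Free

/-! Fusion systems of `p`-stable groups are constrained. -/

set_option autoImplicit false
set_option linter.unusedSectionVars false

namespace Cfsg.Agent.Fusion.FS

variable {G : Type*} [Group G] [Finite G] {F : FS G} {Q R S : Subgroup G} {p : ℕ}
  [hp : Fact p.Prime]

theorem Sat.nor_of_abelian_quot' (hF : F.Sat p) (hQ : F.SC Q) (hRn : F.Nor R)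
    (hab : ⁅Q, Q⁆ ≤ R) (hA : Q ≤ R ⊔ cz R) : F.Nor Q := by
  refine hF.nor_of_wc hQ.wc fun P hP => ?_
  have hr := hP.rad hF.pg
  have h1 := hRn.le_of_rad hF.pg hP.cent hr
  have hi := hRn.sc.wc.aut_le hP.le h1
  refine le_of_forall_mem hF.pg hQ.1 hP.le (hP.le.trans hQ.S_le_nz) fun x hx hxn => ?_
  have hxA := aiS_le_aut hP.le (mem_ai_of_mem (hQ.1 hx) hxn)
  refine hr.mem hP.cent (X := F.aut P ⊓ trv P (P ⊓ Q) ⊓ trv (P ⊓ Q) R ⊓ ai R R)
    (fun g hg => hg.1.1.1) (fun g hg => ?_) ?_ ?_ (hQ.1 hx)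
  · exact mem_nz_inf (mem_nz_inf (mem_nz_inf (le_nz _ hg) (mem_nz_trv (F.aut_le_nz P hg)
      (hQ.aut_le hP.le hg))) (mem_nz_trv (hQ.aut_le hP.le hg) (hi hg))) (nz_le_nz_ai_self R (hi hg))
  · refine pmod_cz_of_triv (hF.pg_le (inf_le_left.trans hP.le)) (fun g hg => hg.1.1.2.2)
      (pmod_cz_of_triv (hF.pg_le hRn.1) (fun g hg => hg.1.2.2) fun g hg => ?_)
    obtain ⟨k, hk, -, c, hc, rfl⟩ := mem_ai'.1 hg.2
    obtain ⟨j, hj⟩ := isPGroup_iff.1 (hF.pg_le hRn.1) k hk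
    exact ⟨j, by rw [Commute.mul_pow (mem_cz.1 hc k hk), hj, one_mul]; exact pow_mem hc _⟩
  · exact ⟨⟨⟨hxA, hQ.NT_le_trv hP.le ⟨hx, hxn⟩⟩, hi hxA, fun y hy => hab (comm_mem hy.2 hx)⟩,
      ai_self R ▸ hA hx⟩

theorem PSt.stable (hS : LocalEven.IsSylowIn p S ⊤) (h : (ofGroup S ⊤).PSt p) :
    IsNormalizerPStable p G := by
  have key : ∀ Q, Q ≤ S → ∀ g ∈ nz Q, Quad Q g → g ∈ opm p (nz Q) (cz Q) := fun Q hQ g hg hq => by
    have e : (ofGroup S ⊤).aut Q = nz Q := by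
      rw [ofGroup_aut le_top hQ]
      exact le_antisymm (ai_le_nz _ _) fun x hx => mem_ai_of_mem trivial hx
    have := h Q hQ g (e ▸ hg) hq
    rwa [e] at this
  refine Glaub.stable_iff.2 fun P hP g hg hq => ?_
  obtain ⟨a, -, ha⟩ := hS.exists_cj_le hP le_top
  have h1 := key (cj a P) ha _ (conj_mem_nz_cj hg) (((quad_iff hg).2 hq).cj a)
  rw [← cj_nz, ← cj_cz, ← cj_opm, conj_mem_cj] at h1
  exact ⟨_, opm_le _ _, le_nz_opm (nz_le_nz_cz P), h1,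
    LocalEven.pResOf_le_of_pow_mem (opm_pmod (nz_le_nz_cz P))⟩

theorem con_of_stable (hp2 : p ≠ 2) (hS : LocalEven.IsSylowIn p S ⊤)
    (h : IsNormalizerPStable p G) : (ofGroup S ⊤).Con p := by
  have hF : (ofGroup S ⊤).Sat p := ofGroup_sat (syl_of_isIn hS)
  have hR := (ofGroup S ⊤).nor_core
  set R := (ofGroup S ⊤).core
  refine hF.con_of hR (by_contra fun h0 => ?_)
  have hSR : S ≤ nz R := hR.sc.S_le_nz
  have hi := (nz R).subtype_injective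
  haveI : (R.subgroupOf (nz R)).Normal := Subgroup.normal_in_normalizer
  obtain ⟨U, h1, h2, h3, h4⟩ := Glaub.exists_sc_above hp2 (Glaub.stable_subgroup h (nz R))
    (R := R.subgroupOf (nz R)) (Glaub.isSylowIn_subgroupOf_top (hS.mono hSR le_top))
    (Subgroup.comap_mono hR.1) fun e => h0 fun x hx =>
      e (x := ⟨x, hSR hx.1⟩) ⟨hx.1, fun y hy => Subtype.ext (hx.2 y hy)⟩
  have e : (R.subgroupOf (nz R)).map (nz R).subtype = R := Subgroup.map_subgroupOf_eq_of_le (le_nz R)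
  have h5 : (ofGroup S ⊤).Nor (U.map (nz R).subtype) := by
    refine hF.nor_of_abelian_quot' (sc_of_forall ?_ ?_) hR ?_ ?_
    · rintro _ ⟨x, hx, rfl⟩
      exact h2.1 hx
    · rintro P g hg _ hx ⟨x, hxU, rfl⟩
      obtain ⟨c, hc, h6, h7⟩ := hR.2 P g hg
      rw [← conj_mul_cz hc hx]
      exact ⟨_, h2.2 x hxU ⟨_, h7⟩ (cj_le_iff.1 (ofGroup_top_M.1 h6).2 _
        ((le_sup_left : P ≤ P ⊔ R) hx)), rfl⟩
    · rw [← Subgroup.map_commutator]
      exact (Subgroup.map_mono h4).trans e.le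
    · refine (Subgroup.map_mono h3).trans ?_
      rw [Subgroup.map_sup, e]
      refine sup_le_sup_left ?_ _
      rintro _ ⟨x, hx, rfl⟩ y hy
      exact congrArg Subtype.val (hx ⟨y, le_nz R hy⟩ hy)
  exact h1.not_ge (Subgroup.map_le_iff_le_comap.1 h5.le_core)

end Cfsg.Agent.Fusion.FS
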