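import Mathlib
import Cfsg.Agent.Glaub.Control

/-! Local-global principle for a conjugacy functor together with a central functor. -/

set_option autoImplicit false
set_option linter.unusedVariables false

namespace Cfsg.Agent.Glaub

open Cfsg Subgroup Cfsg.Agent.LocalEven

variable {G : Type*} [Group G] {p : ℕ}

theorem fus_of_list {E : G → Prop} {Q : Subgroup G} {X : Set G} {c : G} (hc : c ∈ centralizer X)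
    (l : List G) (hl : ∀ x ∈ l, E x⁻¹)
    (h : ∀ k : ℕ, k ≤ l.length →
      (fun x => ((l.take k).prod)⁻¹ * x * (l.take k).prod) '' ((fun x => c⁻¹ * x * c) '' X) ⊆ Q) :
    Fus E Q (closure X) (c * l.prod)⁻¹ := by
  have key : ∀ k, k ≤ l.length → Fus E Q (closure X) (c * (l.take k).prod)⁻¹ := by
    intro k
    induction k with
    | zero =>
      intro _
      refine .base ?_
      rw [List.take_zero, List.prod_nil, mul_one, centralizer_closure]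
      exact inv_mem hc
    | succ k ih =>
      intro hk
      have e : (c * (l.take (k + 1)).prod)⁻¹ = (l[k])⁻¹ * (c * (l.take k).prod)⁻¹ := by
        rw [List.prod_take_succ l k hk]; group
      rw [e]
      refine .step (ih (by omega)) (hl _ (List.getElem_mem hk)) ?_
      rw [← e]
      refine cj_inv_closure_le ?_
      rintro _ ⟨x, hx, rfl⟩
      have := h (k + 1) hk ⟨_, ⟨x, hx, rfl⟩, rfl⟩
      convert this using 1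
      simp only
      group
  have := key l.length le_rfl
  rwa [List.take_length] at this

theorem Fus.exists_list {E : G → Prop} {Q : Subgroup G} {X : Set G} {g : G}
    (h : Fus E Q (closure X) g) (hX : X ⊆ Q) :
    ∃ c ∈ centralizer X, ∃ l : List G, (∀ x ∈ l, E x⁻¹) ∧ g⁻¹ = c * l.prod ∧
      ∀ k : ℕ, k ≤ l.length →
        (fun x => ((l.take k).prod)⁻¹ * x * (l.take k).prod) '' ((fun x => c⁻¹ * x * c) '' X) ⊆ Q := by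
  induction h with
  | @base c hc =>
    rw [centralizer_closure] at hc
    refine ⟨c⁻¹, inv_mem hc, [], by simp, by simp, fun k _ => ?_⟩
    rintro _ ⟨_, ⟨x, hx, rfl⟩, rfl⟩
    have := hc x hx
    simp only [List.take_nil, List.prod_nil, inv_one, one_mul, mul_one, inv_inv]
    rw [← this, mul_inv_cancel_right]
    exact hX hx
  | @step g x _ hx hle ih =>
    obtain ⟨c, hc, l, h1, h2, h3⟩ := ih
    refine ⟨c, hc, l ++ [x⁻¹], ?_, ?_, fun k hk => ?_⟩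
    · intro y hy
      rcases List.mem_append.1 hy with hy | hy
      · exact h1 y hy
      · rw [List.mem_singleton.1 hy, inv_inv]; exact hx
    · rw [mul_inv_rev, h2, List.prod_append, List.prod_singleton, mul_assoc]
    · by_cases hk' : k ≤ l.length
      · rw [List.take_append_of_le_length hk']; exact h3 k hk'
      · have : k = (l ++ [x⁻¹]).length := by simp at hk ⊢; omega
        rw [this, List.take_length, List.prod_append, List.prod_singleton]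
        rintro _ ⟨_, ⟨y, hy, rfl⟩, rfl⟩
        have h4 := hle (conj_mem_cj (g := x * g) (subset_closure hy))
        have h5 : g = (c * l.prod)⁻¹ := by rw [← h2, inv_inv]
        rw [h5] at h4
        rw [SetLike.mem_coe]
        convert h4 using 1
        simp only
        group

variable [hp : Fact p.Prime] [Finite G]

theorem alperin_wp_cent {W : Subgroup G → Subgroup G} (hW : IsConjugacyFunctor p W)
    {S : Subgroup G} (hS : IsSylowIn p S ⊤) (P : Subgroup G → G → Prop)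
    (hcomp : ∀ T g h, T ≤ S → cj g T ≤ S → cj h (cj g T) ≤ S → P T g →
      P (cj g T) h → P T (h * g))
    (hres : ∀ T T' g, T' ≤ T → T ≤ S → cj g T ≤ S → P T g → P T' g)
    (hcent : ∀ T c, T ≤ S → c ∈ 𝐂⟮T⟯ → P T c)
    (hloc : ∀ U, IsWellPlaced p W S U → S ⊓ 𝐂⟮U⟯ ≤ U → ∀ n ∈ 𝐍⟮U⟯, P U n) :
    ∀ T, T ≤ S → ∀ g, cj g T ≤ S → P T g := by
  intro T hT g
  refine alperin hS P (fun T g h _ _ => hcomp T g h) hres (fun T hT ih => ?_) T hT g (mem_top _)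
  obtain ⟨x, -, h2⟩ := exists_wp hW hS T hT
  have hext := ((wp_iff hW hS.pgrp).1 h2).2.1
  refine ⟨_, h2.1, ⟨x, mem_top _, rfl⟩, hext, fun n _ hn => ?_⟩
  rw [← card_cj x T] at ih
  generalize cj x T = U at *
  by_cases hc : S ⊓ 𝐂⟮U⟯ ≤ U
  · exact hloc _ h2 hc n hn
  have hT' : IsSylowIn p (S ⊓ 𝐍⟮U⟯) 𝐍⟮U⟯ := by
    have : IsSylowIn p (S ⊓ 𝐍⟮U⟯) (⊤ ⊓ 𝐍⟮U⟯) := hext
    rwa [top_inf_eq] at this
  have hC := hT'.inf_of_le_normalizer (centralizer_le_normalizer _)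
    (normalizer_le_normalizer_centralizer U)
  rw [inf_assoc, inf_eq_right.2 (centralizer_le_normalizer _)] at hC
  obtain ⟨c, hc', y, hy, rfl⟩ := hC.frattini (normalizer_le_normalizer_centralizer U hn)
  have hyU : y ∈ 𝐍⟮U⟯ := (mul_mem_cancel_left (centralizer_le_normalizer _ hc')).1 hn
  have hU' : U ⊔ (S ⊓ 𝐂⟮U⟯) ≤ S := sup_le h2.1 inf_le_left
  have hyU' : cj y (U ⊔ (S ⊓ 𝐂⟮U⟯)) ≤ S := by
    rw [cj_sup, cj_eq_of_mem_normalizer hyU, cj_eq_of_mem_normalizer hy]; exact hU'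
  have h1 := hres _ U y le_sup_left hU' hyU'
    (ih _ hU' (card_lt_of_lt (left_lt_sup.2 hc)) y (mem_top _) hyU')
  have e := cj_eq_of_mem_normalizer hyU
  refine hcomp U y c h2.1 (by rw [e]; exact h2.1) (by rw [e, cj_of_mem_cent hc']; exact h2.1) h1 ?_
  rw [e]; exact hcent U c h2.1 hc'

section WV

variable {W V : Subgroup G → Subgroup G} {S : Subgroup G}

theorem cent_V_le (hS : IsPGroup p S) (hne : S ≠ ⊥)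
    (hVmono : ∀ H K : Subgroup G, IsPGroup p H → IsPGroup p K → H ≠ ⊥ → K ≠ ⊥ →
      H ⊓ 𝐂⟮H⟯ ≤ K ⊓ 𝐂⟮K⟯ → V H ≤ V K) {Q : Subgroup G} (hQ : Q ≤ S) (hZ : S ⊓ 𝐂⟮S⟯ ≤ Q) :
    𝐂⟮V Q⟯ ≤ 𝐂⟮V S⟯ := by
  refine cent_anti (hVmono S Q hS (hS.to_le hQ) hne ?_
    (le_inf hZ (inf_le_right.trans (cent_anti hQ))))
  obtain ⟨x, hx, hx', ho⟩ := exists_mem_inf_centralizer hS hS le_normalizer hne
  intro h
  exact ne_one_of_orderOf_eq ho (mem_bot.1 (h ▸ hZ ⟨hx, hx'⟩))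

theorem sf_wv (hW : IsConjugacyFunctor p W) (hS : IsSylowIn p S ⊤) (hne : S ≠ ⊥)
    (hWZ : ∀ H : Subgroup G, IsPGroup p H → H ⊓ 𝐂⟮H⟯ ≤ W H)
    (hVmono : ∀ H K : Subgroup G, IsPGroup p H → IsPGroup p K → H ≠ ⊥ → K ≠ ⊥ →
      H ⊓ 𝐂⟮H⟯ ≤ K ⊓ 𝐂⟮K⟯ → V H ≤ V K)
    (hloc : ∀ U, S ⊓ 𝐂⟮S⟯ ≤ U → IsWellPlaced p W S U → ∀ A, A ≤ S ⊓ 𝐍⟮U⟯ → ∀ x ∈ 𝐍⟮U⟯,
      cj x A ≤ S ⊓ 𝐍⟮U⟯ →
      Fus (fun y => y ∈ 𝐍⟮W (S ⊓ 𝐍⟮U⟯)⟯ ∨ y ∈ 𝐂⟮V (S ⊓ 𝐍⟮U⟯)⟯) (S ⊓ 𝐍⟮U⟯) A x) :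
    ∀ A, A ≤ S → ∀ g, cj g A ≤ S → Fus (fun y => y ∈ 𝐍⟮W S⟯ ∨ y ∈ 𝐂⟮V S⟯) S A g := by
  have hQ : ∀ U, S ⊓ 𝐂⟮S⟯ ≤ U → IsWellPlaced p W S U → ∀ A, A ≤ S ⊓ 𝐍⟮U⟯ → ∀ x ∈ 𝐍⟮U⟯,
      cj x A ≤ S ⊓ 𝐍⟮U⟯ → Fus (fun y => y ∈ 𝐍⟮W S⟯ ∨ y ∈ 𝐂⟮V S⟯) S A x := by
    refine down_sub (fun U => S ⊓ 𝐍⟮U⟯) fun U ih hZ hU A hA x hx hxA => ?_
    have hZ' : S ⊓ 𝐂⟮S⟯ ≤ S ⊓ 𝐍⟮U⟯ := le_inf inf_le_left (hZ.trans le_normalizer)
    refine (hloc U hZ hU A hA x hx hxA).bind hA ?_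
    rintro B z hB hzB (hz | hz)
    · rcases (inf_le_left : S ⊓ 𝐍⟮U⟯ ≤ S).eq_or_lt with e | hlt
      · rw [e] at hz hzB
        exact Fus.single (Or.inl hz) hzB
      · have l1 := card_lt_next hW hS.pgrp hlt
        exact ih _ (card_lt_of_lt l1) (le_trans (le_inf hZ' (inf_le_right.trans
          (cent_anti inf_le_left))) (hWZ _ hS.pgrp.to_inf_left))
          ((wp_iff hW hS.pgrp).1 hU).2.2 B (hB.trans l1.le) z hz (hzB.trans l1.le)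
    · exact Fus.single (Or.inr (cent_V_le hS.pgrp hne hVmono inf_le_left hZ' hz))
        (hzB.trans inf_le_left)
  refine alperin_wp_cent hW hS (fun T g => Fus (fun y => y ∈ 𝐍⟮W S⟯ ∨ y ∈ 𝐂⟮V S⟯) S T g)
    (fun T g h _ _ _ p1 p2 => p1.comp p2) (fun T T' g h _ _ p1 => p1.res h)
    (fun T c _ hc => .base hc) (fun U hU hc n hn => ?_)
  have hUR : U ≤ S ⊓ 𝐍⟮U⟯ := le_inf hU.1 le_normalizer
  exact hQ U ((inf_le_inf_left _ (cent_anti hU.1)).trans hc) hU U hUR n hn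
    (by rwa [cj_eq_of_mem_normalizer hn])

theorem tf_wv (hW : IsConjugacyFunctor p W) (hS : IsSylowIn p S ⊤) (hne : S ≠ ⊥)
    (hWZ : ∀ H : Subgroup G, IsPGroup p H → H ⊓ 𝐂⟮H⟯ ≤ W H)
    (hVmono : ∀ H K : Subgroup G, IsPGroup p H → IsPGroup p K → H ≠ ⊥ → K ≠ ⊥ →
      H ⊓ 𝐂⟮H⟯ ≤ K ⊓ 𝐂⟮K⟯ → V H ≤ V K)
    (hloc : ∀ U, S ⊓ 𝐂⟮S⟯ ≤ U → IsWellPlaced p W S U → S ⊓ 𝐍⟮U⟯ ⊓ ⁅𝐍⟮U⟯, 𝐍⟮U⟯⁆ ≤
      (S ⊓ 𝐍⟮U⟯ ⊓ ⁅𝐍⟮W (S ⊓ 𝐍⟮U⟯)⟯, 𝐍⟮W (S ⊓ 𝐍⟮U⟯)⟯⁆) ⊔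
        (S ⊓ 𝐍⟮U⟯ ⊓ ⁅𝐂⟮V (S ⊓ 𝐍⟮U⟯)⟯, 𝐂⟮V (S ⊓ 𝐍⟮U⟯)⟯⁆)) :
    S ⊓ ⁅(⊤ : Subgroup G), (⊤ : Subgroup G)⁆ ≤
      (S ⊓ ⁅𝐍⟮W S⟯, 𝐍⟮W S⟯⁆) ⊔ (S ⊓ ⁅𝐂⟮V S⟯, 𝐂⟮V S⟯⁆) := by
  have hQ : ∀ U, S ⊓ 𝐂⟮S⟯ ≤ U → IsWellPlaced p W S U → S ⊓ 𝐍⟮U⟯ ⊓ ⁅𝐍⟮U⟯, 𝐍⟮U⟯⁆ ≤
      (S ⊓ ⁅𝐍⟮W S⟯, 𝐍⟮W S⟯⁆) ⊔ (S ⊓ ⁅𝐂⟮V S⟯, 𝐂⟮V S⟯⁆) := by
    refine down_sub (fun U => S ⊓ 𝐍⟮U⟯) fun U ih hZ hU => ?_
    have hZ' : S ⊓ 𝐂⟮S⟯ ≤ S ⊓ 𝐍⟮U⟯ := le_inf inf_le_left (hZ.trans le_normalizer)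
    refine (hloc U hZ hU).trans (sup_le ?_ ?_)
    · rcases (inf_le_left : S ⊓ 𝐍⟮U⟯ ≤ S).eq_or_lt with e | hlt
      · rw [e]; exact le_sup_left
      · have l1 := card_lt_next hW hS.pgrp hlt
        refine le_trans ?_ (ih _ (card_lt_of_lt l1) (le_trans (le_inf hZ' (inf_le_right.trans
          (cent_anti inf_le_left))) (hWZ _ hS.pgrp.to_inf_left))
          ((wp_iff hW hS.pgrp).1 hU).2.2)
        exact inf_le_inf_right _ l1.le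
    · have := cent_V_le hS.pgrp hne hVmono inf_le_left hZ'
      exact le_sup_of_le_right (inf_le_inf inf_le_left (commutator_mono this this))
  refine tf_of_pt hS fun A hA g _ => alperin_wp_cent hW hS
    (PT ((S ⊓ ⁅𝐍⟮W S⟯, 𝐍⟮W S⟯⁆) ⊔ (S ⊓ ⁅𝐂⟮V S⟯, 𝐂⟮V S⟯⁆)))
    (fun T g h _ _ _ p1 p2 => p1.comp p2) (fun T T' g h _ _ p1 => p1.res h)
    (fun T c _ hc t ht => ?_) (fun U hU hc n hn t ht => ?_) A hA g
  · rw [mem_cent.1 hc t ht, inv_mul_cancel]; exact one_mem _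
  · have hUR : U ≤ S ⊓ 𝐍⟮U⟯ := le_inf hU.1 le_normalizer
    exact hQ U ((inf_le_inf_left _ (cent_anti hU.1)).trans hc) hU
      ⟨hUR (mul_mem (inv_mem ht) (conj_mem_of_mem_normalizer hn ht)),
        inv_mul_conj_mem_commutator (le_normalizer ht) hn⟩


theorem sylow_of_wp (hW : IsConjugacyFunctor p W) (hS : IsSylowIn p S ⊤) {U : Subgroup G}
    (hU : IsWellPlaced p W S U) : IsSylowIn p (S ⊓ 𝐍⟮U⟯) 𝐍⟮U⟯ := by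
  have : IsSylowIn p (S ⊓ 𝐍⟮U⟯) (⊤ ⊓ 𝐍⟮U⟯) := ((wp_iff hW hS.pgrp).1 hU).2.1
  rwa [top_inf_eq] at this

end WV

end Cfsg.Agent.Glaub
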